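/-
The explicit `Fi₂₄` as a group of `3`-transpositions: the subgroups of the orders of `Fi₂₃` and `He`.
-/
import Mathlib
import Cfsg.Agent.Lib.Fischer.M24.E.Lam
import Cfsg.Agent.Lib.Fischer.M24.E.Simple
import Cfsg.Agent.Lib.Fischer.M24.He.Hom
import Cfsg.Agent.S1695

set_option autoImplicit false
set_option maxRecDepth 100000

namespace Cfsg.Agent.Lib.Fischer.M24.Top

open Cfsg Cfsg.Agent.Lib.Compute.BitNet Cfsg.Agent.Lib.Fischer.M24.Net Cfsg.Agent.Lib.Fischer.M24.Explicit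

theorem card_F2 : Nat.card F2 = 1255205709190661721292800 := by
  have h := Subgroup.card_mul_index F2
  rw [F2_index, card2] at h
  norm_num at h
  omega

/-- The even part of the centralizer of `l`. -/
noncomputable def K2 : Subgroup G2 := H2 ⊓ F2

theorem mem_K2 {g : G2} : g ∈ K2 ↔ g ∈ H2 ∧ g ∈ F2 := Subgroup.mem_inf

theorem K2_le_F2 : K2 ≤ F2 := inf_le_right

/-- The map to the explicit `Fi₂₃`. -/
noncomputable def kHom : K2 →* M23.Explicit.G1 :=
  MonoidHom.mk' (fun x => π2 x.1) (fun a b => π2_mul (mem_K2.1 a.2).1 (mem_K2.1 b.2).1)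

theorem mul_z2_not_F2 {x : G2} (hx : x ∈ F2) : x * z2 ∉ F2 := fun k =>
  z2_not_F2 ((Subgroup.mul_mem_cancel_left _ hx).1 k)

theorem kHom_inj : Function.Injective kHom := by
  intro a b h
  have h1 : π2 a.1 = π2 b.1 := h
  rcases (π2_eq_iff (mem_K2.1 a.2).1 (mem_K2.1 b.2).1).1 h1 with e | e
  · exact Subtype.ext e
  · exact absurd (e ▸ (mem_K2.1 a.2).2) (mul_z2_not_F2 (mem_K2.1 b.2).2)

theorem z2_H2' : z2 ∈ H2 := (comm_z2_iff z2).1 (Commute.refl _)

theorem kHom_surj : Function.Surjective kHom := by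
  intro y
  obtain ⟨h, hh, rfl⟩ := π2_surj y
  by_cases hF : h ∈ F2
  · exact ⟨⟨h, mem_K2.2 ⟨hh, hF⟩⟩, rfl⟩
  · have hn : h * z2 ∈ F2 := (Subgroup.mul_mem_iff_of_index_two F2_index).2 (iff_of_false hF z2_not_F2)
    refine ⟨⟨h * z2, mem_K2.2 ⟨mul_mem hh z2_H2', hn⟩⟩, ?_⟩
    show π2 (h * z2) = π2 h
    rw [π2_mul hh z2_H2', π2_z, mul_one]

/-- The even part of the centralizer of `l` is the explicit `Fi₂₃`. -/
noncomputable def kEq : K2 ≃* M23.Explicit.G1 := MulEquiv.ofBijective kHom ⟨kHom_inj, kHom_surj⟩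

theorem isFi23_K2 : IsFi23 K2 := by
  haveI := M23.Explicit.simple1
  exact ⟨kEq.isSimpleGroup, by rw [Nat.card_congr kEq.toEquiv, M23.Explicit.card1]⟩

/-- The property of being the group `Fi₂₃` does not depend on the model. -/
theorem isFi23_of_equiv {A B : Type*} [Group A] [Group B] (e : A ≃* B) (h : IsFi23 B) : IsFi23 A := by
  haveI := h.1
  exact ⟨e.isSimpleGroup, by rw [Nat.card_congr e.toEquiv, h.2]⟩

theorem isFi23_K2' : IsFi23 (K2.subgroupOf F2) :=
  isFi23_of_equiv (Subgroup.subgroupOfEquivOfLe K2_le_F2) isFi23_K2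

theorem center_conj (g : G2) : Subgroup.centralizer ({g * z2 * g⁻¹} : Set G2) = H2.map (MulAut.conj g).toMonoidHom := by
  ext x
  rw [Subgroup.mem_centralizer_singleton_iff, Subgroup.mem_map]
  constructor
  · intro h
    refine ⟨g⁻¹ * x * g, ?_, ?_⟩
    · rw [← comm_z2_iff]
      show g⁻¹ * x * g * z2 = z2 * (g⁻¹ * x * g)
      calc g⁻¹ * x * g * z2 = g⁻¹ * (x * (g * z2 * g⁻¹)) * g := by group
        _ = g⁻¹ * ((g * z2 * g⁻¹) * x) * g := by rw [h]
        _ = z2 * (g⁻¹ * x * g) := by group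
    · show g * (g⁻¹ * x * g) * g⁻¹ = x
      group
  · rintro ⟨y, hy, rfl⟩
    have hc := (comm_z2_iff y).2 hy
    show g * y * g⁻¹ * (g * z2 * g⁻¹) = g * z2 * g⁻¹ * (g * y * g⁻¹)
    calc g * y * g⁻¹ * (g * z2 * g⁻¹) = g * (y * z2) * g⁻¹ := by group
      _ = g * (z2 * y) * g⁻¹ := by rw [hc.eq]
      _ = _ := by group

theorem card_center (d : G2) (hd : d ∈ D2) : Nat.card (Subgroup.centralizer ({d} : Set G2)) = 2 * 4089470473293004800 := by
  obtain ⟨g, rfl⟩ := conj_trans2 z2 z2_mem d hd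
  rw [center_conj]
  exact (Nat.card_congr ((MulAut.conj g).subgroupMap H2).toEquiv).symm.trans (card_H2.trans (by norm_num))

theorem exists_Fi23 (d : G2) (hd : d ∈ D2) : ∃ K : Subgroup G2, K ≤ Subgroup.centralizer ({d} : Set G2) ∧ IsFi23 K := by
  obtain ⟨g, rfl⟩ := conj_trans2 z2 z2_mem d hd
  refine ⟨K2.map (MulAut.conj g).toMonoidHom, ?_, ?_⟩
  · rw [center_conj]
    exact Subgroup.map_mono inf_le_left
  · exact isFi23_of_equiv ((MulAut.conj g).subgroupMap K2).symm isFi23_K2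

/-- The held group maps to the even part. -/
theorem He_le : ∀ x : Cfsg.Spor.He, Cfsg.Agent.Lib.Fischer.M24.He.toG2 x ∈ F2 := by
  have hs := Cfsg.Agent.S1695.result.1
  let f : Cfsg.Spor.He →* G2 ⧸ F2 := (QuotientGroup.mk' F2).comp Cfsg.Agent.Lib.Fischer.M24.He.toG2
  have hn : f.ker.Normal := inferInstance
  rcases hs.eq_bot_or_eq_top_of_normal _ hn with h | h
  · exfalso
    have hinj : Function.Injective f := (MonoidHom.ker_eq_bot_iff f).1 h
    haveI : Finite (G2 ⧸ F2) := Subgroup.finite_quotient_of_finiteIndex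
    have h1 : Nat.card Cfsg.Spor.He ≤ Nat.card (G2 ⧸ F2) := Nat.card_le_card_of_injective f hinj
    have h2 : Nat.card (G2 ⧸ F2) = 2 := F2_index
    rw [h2, Cfsg.Agent.S1695.result.2] at h1
    omega
  · intro x
    have h1 : x ∈ f.ker := by
      rw [h]
      trivial
    have h2 : (QuotientGroup.mk' F2) (Cfsg.Agent.Lib.Fischer.M24.He.toG2 x) = 1 := h1
    exact (QuotientGroup.eq_one_iff _).1 h2

theorem isHe_sub : ∃ K : Subgroup F2, IsHe K := by
  have hs := Cfsg.Agent.S1695.result.1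
  have hinj := Cfsg.Agent.Lib.Fischer.M24.He.toG2_inj hs
  let f : Cfsg.Spor.He →* F2 :=
    MonoidHom.codRestrict Cfsg.Agent.Lib.Fischer.M24.He.toG2 F2 He_le
  have hf : Function.Injective f := fun a b h => hinj (congrArg Subtype.val h)
  let e := MonoidHom.ofInjective hf
  refine ⟨f.range, ?_, ?_⟩
  · haveI := hs
    exact e.symm.isSimpleGroup
  · rw [← Nat.card_congr e.toEquiv]
    exact Cfsg.Agent.S1695.result.2

/-- The explicit `Fi₂₄` has the properties of the statement. -/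
theorem main : ∃ (G : Type) (_ : Group G) (_ : Finite G), Nat.card G = 2 * 1255205709190661721292800 ∧ ∃ D : Set G,
    IsThreeTranspositionClass D ∧ Nat.card D = 306936 ∧
    (∀ d ∈ D, Nat.card (Subgroup.centralizer ({d} : Set G)) = 2 * 4089470473293004800 ∧
      ∃ K : Subgroup G, K ≤ Subgroup.centralizer ({d} : Set G) ∧ IsFi23 K) ∧
    ∃ H : Subgroup G, H.index = 2 ∧ IsFi24' H ∧ (∃ K : Subgroup H, IsFi23 K) ∧ (∃ K : Subgroup H, IsHe K) := by
  refine ⟨G2, inferInstance, inferInstance, by rw [card2]; norm_num, D2, class2, ?_, fun d hd => ⟨card_center d hd, exists_Fi23 d hd⟩,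
    F2, F2_index, ⟨F2_simple, card_F2⟩, ⟨_, isFi23_K2'⟩, isHe_sub⟩
  rw [Nat.card_coe_set_eq]
  exact D2_ncard

end Cfsg.Agent.Lib.Fischer.M24.Top
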